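import Cfsg.Agent.H700.DM.Defs
import Cfsg.Agent.H677.WeilIrr
import Cfsg.Agent.Characters.Core

/-!
# S4907, DM17: a Weil degree of `PSp_{2m}(q)`, `q` odd (helper7)

`deg_psp`, `bc_ne`.
-/

set_option autoImplicit false

open Cfsg

namespace Cfsg.Agent.H7.DM.WeilDeg

open Cfsg.Agent.H700.DM Cfsg.Agent.Characters

universe u v

variable {F : Type*} [Field F] [Fintype F] {m : ℕ}

theorem two_ne (ho : Odd (Fintype.card F)) : (2 : F) ≠ 0 := by
  intro h
  obtain ⟨p, hp⟩ := CharP.exists F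
  have hp1 := CharP.char_is_prime F p
  have h2 : p ∣ 2 := (CharP.cast_eq_zero_iff F p 2).1 (by exact_mod_cast h)
  have h3 : p = 2 := (Nat.prime_dvd_prime_iff_eq hp1 Nat.prime_two).1 h2
  subst h3
  have : Fact (Nat.Prime 2) := ⟨Nat.prime_two⟩
  obtain ⟨n, -, hn⟩ := FiniteField.card F 2
  rw [hn] at ho
  have h4 : Even (2 ^ (n : ℕ)) := (Nat.even_pow.2 ⟨even_two, n.pos.ne'⟩)
  exact (Nat.not_even_iff_odd.2 ho) h4

theorem two_lt (ho : Odd (Fintype.card F)) : 3 ≤ Fintype.card F := by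
  have h1 := Fintype.one_lt_card (α := F)
  rcases ho with ⟨k, hk⟩
  omega

/-- **a degree of `PSp_{2m}(q)` between `2` and `(q^m + 1) / 2`** -/
theorem deg_psp (hm : 2 ≤ m) (ho : Odd (Fintype.card F)) :
    ∃ d, 1 < d ∧ 2 * d ≤ Fintype.card F ^ m + 1 ∧ HasDeg d (PSp m F) := by
  obtain ⟨χ, hχ⟩ := H677.WeilIrr.exists_irr_psp (F := F) (n := m) (by omega) (two_ne ho)
  have h3 := two_lt ho
  have h4 : 3 ^ 2 ≤ Fintype.card F ^ m :=
    (Nat.pow_le_pow_left h3 2).trans (Nat.pow_le_pow_right (by omega) hm)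
  rw [Nat.card_eq_fintype_card] at hχ
  refine ⟨charDegree (χ : PSp m F → ℂ), ?_, ?_, χ, rfl⟩
  · omega
  · omega

/-- **types `B` and `C`** -/
theorem bc_ne (hm : 2 ≤ m) (ho : Odd (Fintype.card F)) {G : Type u} {H : Type v} [Group G] [Group H]
    (e : G ⧸ Subgroup.center G ≃* PSp m F) (hH : LowDeg (Fintype.card F ^ m) H) : ¬ SameDeg G H := by
  rintro ⟨f, hf⟩
  obtain ⟨d, hd1, hd2, χ, hχ⟩ := deg_psp (F := F) hm ho
  have h3 := two_lt ho
  have h4 : 3 ^ 2 ≤ Fintype.card F ^ m :=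
    (Nat.pow_le_pow_left h3 2).trans (Nat.pow_le_pow_right (by omega) hm)
  let π : G →* PSp m F := e.toMonoidHom.comp (QuotientGroup.mk' (Subgroup.center G))
  have hπ : Function.Surjective π := e.surjective.comp (QuotientGroup.mk'_surjective _)
  let χ' : IrrCharacter G := ⟨(χ : PSp m F → ℂ) ∘ π, Core.isIrr_comp π hπ χ.2⟩
  have h5 : charDegree (χ' : G → ℂ) = d := by
    rw [← hχ]
    unfold charDegree
    show ⌊((χ : PSp m F → ℂ) (π 1)).re⌋₊ = _
    rw [map_one]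
  rcases hH (f χ') with h | h
  · rw [hf, h5] at h
    omega
  · rw [hf, h5] at h
    omega

end Cfsg.Agent.H7.DM.WeilDeg
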